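import Cfsg.Agent.Lib.CharRealSolvable.Odd
import Cfsg.Agent.Lib.CharRealSolvable.Over
import Cfsg.Agent.Lib.PGroupFrattini

/-!
# Real characters of odd degree of a solvable group and of a Sylow normaliser
-/

set_option autoImplicit false
set_option linter.unusedSectionVars false
set_option linter.style.haveILetI false

open scoped ComplexConjugate

namespace Cfsg.Agent.Lib.CharRealSolvable

open Cfsg Cfsg.Agent.Lib Cfsg.Agent.Lib.Char Cfsg.Agent.Lib.CharClifford

universe u v

variable {G : Type u} [Group G] [Finite G]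

theorem odd_index (P : Sylow 2 G) {H : Subgroup G} (h : (P : Subgroup G) ≤ H) : Odd H.index :=
  haveI : Fact (Nat.Prime 2) := ⟨Nat.prime_two⟩
  (Nat.odd_iff.2 (Nat.two_dvd_ne_zero.1 P.not_dvd_index)).of_dvd_nat (Subgroup.index_dvd_of_le h)

theorem elemMod_subgroupOf {P T : Subgroup G} (hPT : P ≤ T) (X : Subgroup G) :
    ElemMod P X ↔ ElemMod (P.subgroupOf T) (X.subgroupOf T) := by
  set e := Subgroup.subgroupOfEquivOfLe hPT with he
  constructor
  · intro h μ hμ x
    have := h (μ.comp e.symm.toMonoidHom) (fun y hy => hμ _ hy) (e x)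
    simpa using this
  · intro h μ hμ x
    have := h (μ.comp e.toMonoidHom) (fun y hy => hμ _ hy) (e.symm x)
    simpa using this

/-- A linear character of degree-one constituents. -/
theorem exists_hom_of_odd {Q : Type v} [Group Q] [Finite Q] (hQ : IsPGroup 2 Q) (θ : IrrCharacter Q)
    (ho : Odd (charDegree (θ : Q → ℂ))) : ∃ l : Q →* ℂˣ, ∀ q, (θ : Q → ℂ) q = (l q : ℂ) := by
  obtain ⟨j, hj⟩ := IsPGroup.iff_card.1 hQ
  obtain ⟨i, -, hi⟩ := (Nat.dvd_prime_pow Nat.prime_two).1 (hj ▸ charDegree_dvd_card θ.2)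
  refine exists_hom_of_degree_one (isCharacter_of_isIrr θ.2) ?_
  rw [apply_one_eq_charDegree (isCharacter_of_isIrr θ.2), hi]
  rcases Nat.eq_zero_or_pos i with rfl | hi0
  · simp
  · exact absurd ho (by rw [hi, Nat.not_odd_iff_even]; exact Nat.even_pow.2 ⟨even_two, hi0.ne'⟩)

/-- An invariant real linear constituent on a normal `2`-subgroup. -/
theorem exists_linear_inv [Fintype G] {Q : Subgroup G} [Q.Normal] [Fintype Q] (hQ : IsPGroup 2 Q)
    (P : Sylow 2 G) {χ : IrrCharacter G} (hro : RO χ)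
    (hnt : ¬ ∀ k ∈ Q, (χ : G → ℂ) k = (χ : G → ℂ) 1) :
    ∃ l : Q →* ℂˣ, (∀ q, l q ^ 2 = 1) ∧ l ≠ 1 ∧ (P : Subgroup G) ≤ inertia Q (homFun l) ∧
      classInner (fun q : Q => (χ : G → ℂ) q) (homFun l) ≠ 0 := by
  obtain ⟨θ, hθ, ho, hinv⟩ := exists_inv_constituent (L := Q) P hro.2
  obtain ⟨l, hl⟩ := exists_hom_of_odd hQ θ ho
  have hθl : (θ : Q → ℂ) = homFun l := funext hl
  refine ⟨l, (hom_real_iff l).1 fun q => by rw [← hl]; exact constituent_real hro hθ q, ?_, ?_,
    hθl ▸ hθ⟩
  · intro h1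
    refine hnt (trivial_of_constituent hθ fun n => ?_)
    rw [hl, h1]; rfl
  · intro x hx
    exact (mem_inertia Q).2 (hθl ▸ hinv x hx)

open scoped Classical in
/-- The real characters of odd degree, sorted by their constituents. -/
theorem card_split [Fintype G] {Q : Subgroup G} [Q.Normal] [Fintype Q] {ι : Type*} [Fintype ι]
    (lam : ι → (Q →* ℂˣ)) (hne : ∀ i, lam i ≠ 1)
    (hu : ∀ χ : IrrCharacter G, RO χ → (¬ ∀ k ∈ Q, (χ : G → ℂ) k = (χ : G → ℂ) 1) →
      ∃! i, classInner (fun q : Q => (χ : G → ℂ) q) (homFun (lam i)) ≠ 0) :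
    Nat.card {χ : IrrCharacter G // RO χ} = cnt Q + ∑ i, Nat.card {χ : IrrCharacter G // RO χ ∧
      classInner (fun q : Q => (χ : G → ℂ) q) (homFun (lam i)) ≠ 0} := by
  rw [cnt, ← Nat.card_sigma, ← Nat.card_sum]
  symm
  refine Nat.card_congr (Equiv.ofBijective (Sum.elim (fun χ => ⟨χ.1, χ.2.1⟩)
    (fun χ => ⟨χ.2.1, χ.2.2.1⟩)) ⟨?_, ?_⟩)
  · have hexcl : ∀ (χ : IrrCharacter G) i,
        classInner (fun q : Q => (χ : G → ℂ) q) (homFun (lam i)) ≠ 0 →
        ¬ ∀ k ∈ Q, (χ : G → ℂ) k = (χ : G → ℂ) 1 := by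
      intro χ i h htr
      refine h ?_
      rw [show (fun q : Q => (χ : G → ℂ) q) = (χ : G → ℂ) 1 • fun _ : Q => (1 : ℂ) from
        funext fun q => by rw [Pi.smul_apply, smul_eq_mul, mul_one]; exact htr _ q.2,
        classInner_smul_left, classInner_irr_ne isIrrCharacter_one (isIrr_homFun (lam i))
          (fun h' => hne i (MonoidHom.ext fun q => Units.ext ?_)), mul_zero]
      exact (congrFun h' q).symm
    rintro (a | ⟨i, a⟩) (b | ⟨j, b⟩) h <;>
      simp only [Sum.elim_inl, Sum.elim_inr, Subtype.mk.injEq] at h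
    · exact congrArg Sum.inl (Subtype.ext h)
    · exact absurd (h ▸ a.2.2) (hexcl b.1 j b.2.2)
    · exact absurd (h.symm ▸ b.2.2) (hexcl a.1 i a.2.2)
    · obtain rfl : i = j := (hu a.1 a.2.1 (hexcl a.1 i a.2.2)).unique a.2.2 (h ▸ b.2.2)
      exact congrArg Sum.inr (Sigma.ext rfl (heq_of_eq (Subtype.ext h)))
  · rintro ⟨χ, hro⟩
    by_cases h : ∀ k ∈ Q, (χ : G → ℂ) k = (χ : G → ℂ) 1
    · exact ⟨Sum.inl ⟨χ, hro, h⟩, rfl⟩
    · obtain ⟨i, hi, -⟩ := hu χ hro h
      exact ⟨Sum.inr ⟨i, χ, hro, hi⟩, rfl⟩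

/-- A conjugation between invariant characters can be done inside the normaliser. -/
theorem exists_normalizer_conj {Q : Subgroup G} [Q.Normal] (P : Sylow 2 G) {f f' : Q → ℂ}
    (hf : (P : Subgroup G) ≤ inertia Q f) (hf' : (P : Subgroup G) ≤ inertia Q f') {g : G}
    (hg : conjChar Q g f = f') :
    ∃ n ∈ Subgroup.normalizer ((P : Subgroup G) : Set G), conjChar Q n f = f' := by
  haveI : Fact (Nat.Prime 2) := ⟨Nat.prime_two⟩
  set T := inertia Q f with hT
  have hgP : ((g • P : Sylow 2 G) : Subgroup G) ≤ T := by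
    intro y hy
    rw [Sylow.coe_subgroup_smul] at hy
    obtain ⟨x, hx, rfl⟩ := hy
    rw [hT, mem_inertia]
    show conjChar Q (g * x * g⁻¹) f = f
    rw [conjChar_mul, conjChar_mul, hg, (mem_inertia Q).1 (hf' hx), ← hg, ← conjChar_mul,
      mul_inv_cancel, conjChar_one]
  obtain ⟨t, ht⟩ := MulAction.exists_smul_eq T (P.subtype hf) ((g • P).subtype hgP)
  have ht' : (t : G) • P = g • P := by
    apply Sylow.subtype_injective (hP := by
      rw [Sylow.coe_subgroup_smul]
      rintro _ ⟨x, hx, rfl⟩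
      exact T.mul_mem (T.mul_mem t.2 (hf hx)) (T.inv_mem t.2)) (hQ := hgP)
    rw [← ht]
    exact (Sylow.smul_subtype hf t).symm
  refine ⟨(t : G)⁻¹ * g, ?_, ?_⟩
  · refine Sylow.smul_eq_iff_mem_normalizer.1 ?_
    rw [mul_smul, ← ht', inv_smul_smul]
  · rw [conjChar_mul, (mem_inertia Q).1 (T.inv_mem t.2), hg]

/-- Reality descends along the correspondence. -/
theorem real_of_ind [Fintype G] {Q : Subgroup G} [Q.Normal] [Fintype Q] {l : Q →* ℂˣ}
    (hsq : ∀ q, l q ^ 2 = 1) {T : Subgroup G} [Fintype T] (hT : inertia Q (homFun l) = T)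
    (hQT : Q ≤ T) (ψ : IrrCharacter T)
    (hov : classInner (resLe hQT (ψ : T → ℂ)) (homFun l) ≠ 0)
    (hr : ∀ g, (indFun T (ψ : T → ℂ) g).im = 0) : ∀ t, ((ψ : T → ℂ) t).im = 0 := by
  have hl := isIrr_homFun l
  have hconj : (fun t : T => conj ((ψ : T → ℂ) t)) = (ψ : T → ℂ) := by
    refine (indFun_correspondent Q hl T hT hQT ψ.2 hov).2 _ (isIrrCharacter_conj ψ.2) ?_ ?_
    · intro h0
      refine hov ?_
      have e : classInner (resLe hQT fun t : T => conj ((ψ : T → ℂ) t)) (homFun l) =
          conj (classInner (resLe hQT (ψ : T → ℂ)) (homFun l)) := by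
        simp [classInner, map_sum, resLe, real_homFun hsq]
      rw [e, map_eq_zero] at h0
      exact h0
    · funext g
      rw [← indFun_conj]
      exact Complex.conj_eq_iff_im.2 (hr g)
  exact fun t => Complex.conj_eq_iff_im.1 (congrFun hconj t)

variable [Group.IsSolvable G]

/-- The claim in the presence of a normal abelian subgroup of odd order. -/
theorem claim_of_odd (ih : ClaimBelow.{u} (Nat.card G)) (P : Sylow 2 G) (L : Subgroup G) [L.Normal]
    [IsMulCommutative L] (hL0 : L ≠ ⊥) (hL : Odd (Nat.card L)) : Claim P := by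
  classical
  haveI : Fact (Nat.Prime 2) := ⟨Nat.prime_two⟩
  haveI := Fintype.ofFinite G
  haveI := Fintype.ofFinite L
  set N := Subgroup.normalizer ((P : Subgroup G) : Set G) with hN
  haveI := Fintype.ofFinite N
  haveI := Fintype.ofFinite (L.subgroupOf N)
  have hlt := card_quotient_lt' L hL0
  have hLP := inf_sylow_eq_bot P hL
  refine ⟨?_, ⟨fun hall => ?_, fun ⟨hel, hnp⟩ => ?_⟩⟩
  · have hN' : Odd (Nat.card (L.subgroupOf N)) :=
      hL.of_dvd_nat (Subgroup.card_dvd_of_injective
        ((N.subtype.comp (L.subgroupOf N).subtype).codRestrict L fun x => x.2)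
        fun a b h => Subtype.ext (Subtype.ext (congrArg Subtype.val h :)))
    calc Nat.card {χ : IrrCharacter G // RO χ} = cnt L :=
          Nat.card_congr (Equiv.subtypeEquivRight fun χ =>
            ⟨fun h => ⟨h, trivial_of_odd h hL⟩, fun h => h.1⟩)
      _ = cnt (L.subgroupOf N) := stepA ih P L hlt
      _ = _ := Nat.card_congr (Equiv.subtypeEquivRight fun χ =>
            ⟨fun h => h.1, fun h => ⟨h, trivial_of_odd h hN'⟩⟩)
  · obtain ⟨hel, hnp⟩ := (stepB ih P L hlt).1 fun χ ho _ => hall χ ho fun k hk => by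
      rw [Subgroup.mem_bot.1 hk]
    refine ⟨fun μ _ => hel μ fun x hx => ?_, fun n hn => ?_⟩
    · have hm : (x : G) ∈ L ⊓ (P : Subgroup G) := ⟨hx, x.2⟩
      rw [hLP, Subgroup.mem_bot] at hm
      rw [show x = 1 from Subtype.ext hm, map_one]
    · obtain ⟨y, hy, c, hc, rfl⟩ := Subgroup.mem_sup_of_normal_right.1 (hnp hn)
      have hcN : c ∈ N := (N.mul_mem_cancel_left (Subgroup.le_normalizer hy)).1 hn
      have hcomm : ∀ x : (P : Subgroup G), MulAut.conjNormal (x : G) (⟨c, hc⟩ : L) = ⟨c, hc⟩ := by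
        intro x
        have hm : (x : G) * c * (x : G)⁻¹ * c⁻¹ ∈ L ⊓ (P : Subgroup G) := by
          refine ⟨L.mul_mem ((inferInstance : L.Normal).conj_mem c hc _) (L.inv_mem hc), ?_⟩
          have := (Subgroup.mem_normalizer_iff.1 hcN (x : G)⁻¹).1 (Subgroup.inv_mem _ x.2)
          rw [show (x : G) * c * (x : G)⁻¹ * c⁻¹ = (x : G) * (c * (x : G)⁻¹ * c⁻¹) by group]
          exact Subgroup.mul_mem _ x.2 this
        rw [hLP, Subgroup.mem_bot, mul_inv_eq_one] at hm
        exact Subtype.ext ((MulAut.conjNormal_apply _ _).trans hm)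
      have := fixed_of_allReal P hL hall ⟨c, hc⟩ hcomm
      rw [show c = 1 from congrArg Subtype.val this, mul_one]
      exact hy
  · have hC : ∀ c : L, (∀ x : (P : Subgroup G), MulAut.conjNormal (x : G) c = c) → c = 1 := by
      intro c hc
      have hcN : (c : G) ∈ N := by
        refine Subgroup.centralizer_le_normalizer _ (Subgroup.mem_centralizer_iff.2 fun x hx => ?_)
        have := congrArg Subtype.val (hc ⟨x, hx⟩)
        rw [MulAut.conjNormal_apply] at this
        exact mul_inv_eq_iff_eq_mul.1 this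
      have hm : (c : G) ∈ L ⊓ (P : Subgroup G) := ⟨c.2, hnp hcN⟩
      rw [hLP, Subgroup.mem_bot] at hm
      exact Subtype.ext hm
    intro χ ho _
    exact (stepB ih P L hlt).2 ⟨fun μ _ => hel μ fun x hx => by
        rw [show x = 1 from Subtype.ext (Subgroup.mem_bot.1 hx), map_one],
      hnp.trans le_sup_left⟩ χ ho (trivial_of_fixed P hL hC ho)

/-- The claim for a `2`-group. -/
theorem claim_of_pgroup (hG : IsPGroup 2 G) (P : Sylow 2 G) : Claim P := by
  classical
  haveI : Fact (Nat.Prime 2) := ⟨Nat.prime_two⟩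
  haveI := Fintype.ofFinite G
  have hP : (P : Subgroup G) = ⊤ :=
    (P.is_maximal' (hG.to_subgroup ⊤) le_top).symm
  have hN : Subgroup.normalizer ((P : Subgroup G) : Set G) = ⊤ :=
    top_le_iff.1 (hP ▸ Subgroup.le_normalizer)
  refine ⟨(card_ro_eq ((MulEquiv.subgroupCongr hN).trans Subgroup.topEquiv)).symm,
    ⟨fun hall => ⟨fun μ _ x => ?_, by rw [hP]; exact le_top⟩, fun ⟨hel, _⟩ χ ho _ g => ?_⟩⟩
  · set e : (P : Subgroup G) ≃* G := (MulEquiv.subgroupCongr hP).trans Subgroup.topEquiv
    set l : G →* ℂˣ := μ.comp e.symm.toMonoidHom with hl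
    have hr := hall ⟨_, isIrrCharacter_linear l⟩ (by
      show Odd (charDegree (fun g => (l g : ℂ)))
      rw [charDegree_eq_of_apply_one (n := 1) (by simp)]; exact odd_one)
      fun k hk => by rw [Subgroup.mem_bot.1 hk]
    have := (hom_real_iff l).1 hr (e x)
    simpa [hl] using this
  · obtain ⟨l, hl⟩ := exists_hom_of_odd hG χ ho
    rw [hl]
    refine (hom_real_iff l).2 (fun y => ?_) g
    have h := hel (l.comp (P : Subgroup G).subtype) (fun z hz => by
      rw [show z = 1 from Subtype.ext (Subgroup.mem_bot.1 hz), map_one]) ⟨y, hP ▸ Subgroup.mem_top y⟩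
    simpa using h

/-- The claim without normal subgroups of odd order. -/
theorem claim_of_core (ih : ClaimBelow.{u} (Nat.card G)) (P : Sylow 2 G) (Q : Subgroup G) [Q.Normal]
    (hQ : IsPGroup 2 Q) (hQP : Q ≤ (P : Subgroup G))
    (hCQ : Subgroup.centralizer (Q : Set G) ≤ Q) (hQtop : Q ≠ ⊤) : Claim P := by
  classical
  haveI : Fact (Nat.Prime 2) := ⟨Nat.prime_two⟩
  haveI := Fintype.ofFinite G
  haveI := Fintype.ofFinite Q
  set N := Subgroup.normalizer ((P : Subgroup G) : Set G) with hN
  have hPN : (P : Subgroup G) ≤ N := Subgroup.le_normalizer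
  have hQN : Q ≤ N := hQP.trans hPN
  haveI := Fintype.ofFinite N
  -- kernels are not trivial
  have hker : ∀ l : Q →* ℂˣ, (∀ q, l q ^ 2 = 1) → kerOf l ≠ ⊥ := by
    intro l hsq h0
    have hinj : Function.Injective l := fun a c h => by
      have h1 : ((a⁻¹ * c : Q) : G) ∈ kerOf l := mem_kerOf.2 (by
        rw [map_mul, map_inv, h, inv_mul_cancel])
      rw [h0, Subgroup.mem_bot] at h1
      exact inv_mul_eq_one.1 (Subtype.ext h1)
    have hcard : Nat.card Q ≤ 2 := by
      have h2 : Nat.card (rootsOfUnity 2 ℂ) = 2 := Complex.card_rootsOfUnity 2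
      refine le_of_le_of_eq (Nat.card_le_card_of_injective
        (fun q => (⟨l q, (mem_rootsOfUnity 2 _).2 (hsq q)⟩ : rootsOfUnity 2 ℂ)) ?_) h2
      exact fun a c h => hinj (congrArg Subtype.val h :)
    refine hQtop (top_le_iff.1 (le_trans ?_ hCQ))
    intro g _
    refine Subgroup.mem_centralizer_iff.2 fun q hq => ?_
    by_contra hne
    have hq1 : q ≠ 1 := fun h => hne (by rw [h, one_mul, mul_one])
    set r : Q := ⟨g * q * g⁻¹, (inferInstance : Q.Normal).conj_mem q hq g⟩ with hr
    have h3 : ({1, ⟨q, hq⟩, r} : Finset Q).card = 3 := by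
      refine Finset.card_eq_three.2 ⟨_, _, _, ?_, ?_, ?_, rfl⟩
      · exact fun h => hq1 (congrArg Subtype.val h).symm
      · exact fun h => hq1 (conj_eq_one_iff.1 (congrArg Subtype.val h).symm)
      · intro h
        have h' : q = g * q * g⁻¹ := congrArg Subtype.val h
        exact hne (eq_mul_inv_iff_mul_eq.1 h')
    have := ({1, ⟨q, hq⟩, r} : Finset Q).card_le_univ
    rw [← Nat.card_eq_fintype_card] at this
    omega
  have hQ0 : Q ≠ ⊥ := fun h => hker 1 (fun q => one_pow 2) (eq_bot_iff.2 ((kerOf_le 1).trans h.le))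
  have hltQ := card_quotient_lt' Q hQ0
  -- inside an inertia group
  have hltT : ∀ (T : Subgroup G) (X : Subgroup G), X ≤ T → X ≠ ⊥ →
      Nat.card (T ⧸ X.subgroupOf T) < Nat.card G := fun T X hXT hX =>
    card_quotient_lt _ fun h => hX (by
      rw [Subgroup.subgroupOf_eq_bot, disjoint_iff, inf_eq_left.2 hXT] at h
      exact h)
  have hstepA : ∀ (T : Subgroup G) (hPT : (P : Subgroup G) ≤ T) (X : Subgroup G),
      (X.subgroupOf T).Normal → X ≤ T → X ≠ ⊥ →
      cnt ((X.subgroupOf N).subgroupOf (T.subgroupOf N)) = cnt (X.subgroupOf T) := by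
    intro T hPT X hXn hXT hX
    haveI := hXn
    rw [stepA (G := T) ih (P.subtype hPT) (X.subgroupOf T) (hltT T X hXT hX)]
    set NT := Subgroup.normalizer (((P.subtype hPT : Sylow 2 T) : Subgroup T) : Set T) with hNT
    have hmem : ∀ y : T, y ∈ NT ↔ (y : G) ∈ N := by
      intro y
      rw [hNT, Sylow.coe_subtype, ← Subgroup.subgroupOf_normalizer_eq hPT, Subgroup.mem_subgroupOf]
    let φ : T.subgroupOf N →* NT :=
      { toFun := fun x => ⟨⟨((x : N) : G), x.2⟩, (hmem _).2 (x : N).2⟩
        map_one' := rfl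
        map_mul' := fun _ _ => rfl }
    have hinj : Function.Injective φ := fun a c h =>
      Subtype.ext (Subtype.ext (congrArg (fun z : NT => ((z : T) : G)) h))
    have hsur : Function.Surjective φ := fun y =>
      ⟨⟨⟨((y : T) : G), (hmem _).1 y.2⟩, (y : T).2⟩, rfl⟩
    rw [cnt_map φ hsur _ (by rw [(MonoidHom.ker_eq_bot_iff φ).2 hinj]; exact bot_le)]
    congr 1
    ext y
    constructor
    · rintro ⟨x, hx, rfl⟩
      exact hx
    · intro hy
      obtain ⟨x, rfl⟩ := hsur y
      exact ⟨x, hy, rfl⟩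
  refine ⟨?_, ?_⟩
  · -- the count
    let Inv := {l : Q →* ℂˣ // (∀ q, l q ^ 2 = 1) ∧ l ≠ 1 ∧
      (P : Subgroup G) ≤ inertia Q (homFun l)}
    let S : Setoid Inv :=
      { r := fun a c => ∃ n ∈ N, conjChar Q n (homFun a.1) = homFun c.1
        iseqv := ⟨fun a => ⟨1, one_mem _, conjChar_one Q _⟩,
          fun {a c} ⟨n, hn, h⟩ => ⟨n⁻¹, inv_mem hn, by
            rw [← h, ← conjChar_mul, mul_inv_cancel, conjChar_one]⟩,
          fun {a c e} ⟨n, hn, h⟩ ⟨n', hn', h'⟩ => ⟨n * n', mul_mem hn hn', by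
            rw [conjChar_mul, h, h']⟩⟩ }
    haveI : Finite (Q →* ℂˣ) := Finite.of_injective
      (fun l => (⟨homFun l, isIrr_homFun l⟩ : IrrCharacter Q)) fun a c h => MonoidHom.ext fun q =>
        Units.ext (congrFun (congrArg Subtype.val h :) q)
    haveI := Fintype.ofFinite (Quotient S)
    let lam : Quotient S → (Q →* ℂˣ) := fun i => i.out.1
    have hover : ∀ (χ : IrrCharacter G) (a c : Inv), S.r a c →
        classInner (fun q : Q => (χ : G → ℂ) q) (homFun a.1) ≠ 0 →
        classInner (fun q : Q => (χ : G → ℂ) q) (homFun c.1) ≠ 0 := by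
      rintro χ a c ⟨n, -, h⟩ h0
      rw [← h]
      conv => arg 1; arg 1; rw [← conjChar_restrict Q (isClassFunction_of_isIrr χ.2) n]
      rwa [classInner_conjChar]
    have hG : Nat.card {χ : IrrCharacter G // RO χ} = cnt Q + ∑ i, Nat.card {χ : IrrCharacter G //
        RO χ ∧ classInner (fun q : Q => (χ : G → ℂ) q) (homFun (lam i)) ≠ 0} := by
      refine card_split lam (fun i => i.out.2.2.1) fun χ hro hnt => ?_
      obtain ⟨l, h1, h2, h3, h4⟩ := exists_linear_inv hQ P hro hnt
      refine ⟨Quotient.mk S ⟨l, h1, h2, h3⟩, hover χ ⟨l, h1, h2, h3⟩ _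
        (S.iseqv.symm (Quotient.mk_out (s := S) ⟨l, h1, h2, h3⟩)) h4, fun j hj => ?_⟩
      rw [← Quotient.out_eq j]
      refine Quotient.sound ?_
      obtain ⟨g, hg⟩ := conjugate_of_constituents Q χ.2 (isIrr_homFun _) (isIrr_homFun _) hj h4
      exact exists_normalizer_conj P j.out.2.2.2 h3 hg
    set e := Subgroup.subgroupOfEquivOfLe hQN with he
    haveI := Fintype.ofFinite (Q.subgroupOf N)
    have hconjN : ∀ (n : N) (f : Q → ℂ),
        conjChar (Q.subgroupOf N) n (f ∘ e) = conjChar Q (n : G) f ∘ e := fun n f => funext fun x => by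
      rw [Function.comp_apply, conjChar_apply, conjChar_apply]
      exact congrArg f (Subtype.ext rfl)
    have hinnN : ∀ (χ : IrrCharacter N) (l : Q →* ℂˣ),
        classInner (fun x : Q.subgroupOf N => (χ : N → ℂ) x) (homFun (l.comp e.toMonoidHom)) =
        classInner (fun q : Q => (χ : N → ℂ) ⟨q, hQN q.2⟩) (homFun l) := fun χ l => by
      rw [show homFun (l.comp e.toMonoidHom) = homFun l ∘ e from rfl,
        show (fun x : Q.subgroupOf N => (χ : N → ℂ) x) =
          (fun q : Q => (χ : N → ℂ) ⟨q, hQN q.2⟩) ∘ e from rfl, classInner_comp_equiv]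
    have hNc : Nat.card {χ : IrrCharacter N // RO χ} = cnt (Q.subgroupOf N) +
        ∑ i, Nat.card {χ : IrrCharacter N // RO χ ∧
          classInner (fun x : Q.subgroupOf N => (χ : N → ℂ) x)
            (homFun ((lam i).comp e.toMonoidHom)) ≠ 0} := by
      refine card_split (fun i => (lam i).comp e.toMonoidHom) (fun i h => i.out.2.2.1 ?_)
        fun χ hro hnt => ?_
      · refine MonoidHom.ext fun q => ?_
        have := DFunLike.congr_fun h (e.symm q)
        simpa using this
      obtain ⟨l', h1, h2, h3, h4⟩ := exists_linear_inv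
        (hQ.of_equiv e.symm) (P.subtype hPN) hro hnt
      set l : Q →* ℂˣ := l'.comp e.symm.toMonoidHom with hl
      have hl' : l' = l.comp e.toMonoidHom := MonoidHom.ext fun x => by simp [hl]
      have hh3 : (P : Subgroup G) ≤ inertia Q (homFun l) := by
        intro x hx
        rw [mem_inertia]
        have hx' := (mem_inertia _).1 (h3 (show (⟨x, hPN hx⟩ : N) ∈
          ((P.subtype hPN : Sylow 2 N) : Subgroup N) by rw [Sylow.coe_subtype]; exact hx))
        rw [hl', show homFun (l.comp e.toMonoidHom) = homFun l ∘ e from rfl, hconjN] at hx'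
        funext q
        simpa using congrFun hx' (e.symm q)
      let a : Inv := ⟨l, fun q => h1 (e.symm q), fun h => h2 (by rw [hl', h]; rfl), hh3⟩
      have hoverN : ∀ c d : Inv, S.r c d →
          classInner (fun x : Q.subgroupOf N => (χ : N → ℂ) x) (homFun (c.1.comp e.toMonoidHom)) ≠ 0 →
          classInner (fun x : Q.subgroupOf N => (χ : N → ℂ) x) (homFun (d.1.comp e.toMonoidHom)) ≠ 0 := by
        rintro c d ⟨n, hn, h⟩ h0
        rw [show homFun (d.1.comp e.toMonoidHom) = homFun d.1 ∘ e from rfl, ← h,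
          ← hconjN ⟨n, hn⟩]
        conv => arg 1; arg 1; rw [← conjChar_restrict (Q.subgroupOf N)
          (isClassFunction_of_isIrr χ.2) ⟨n, hn⟩]
        rwa [classInner_conjChar]
      rw [hl'] at h4
      refine ⟨Quotient.mk S a, hoverN a _ (S.iseqv.symm (Quotient.mk_out (s := S) a)) h4,
        fun j hj => ?_⟩
      rw [← Quotient.out_eq j]
      refine Quotient.sound ?_
      obtain ⟨g, hg⟩ := conjugate_of_constituents (Q.subgroupOf N) χ.2 (isIrr_homFun _)
        (isIrr_homFun _) hj h4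
      refine ⟨g, g.2, funext fun q => ?_⟩
      rw [show homFun ((lam j).comp e.toMonoidHom) = homFun (lam j) ∘ e from rfl, hconjN] at hg
      simpa [homFun] using congrFun hg (e.symm q)
    rw [hG, hNc, stepA ih P Q hltQ]
    congr 1
    refine Finset.sum_congr rfl fun i _ => ?_
    rcases hi : i.out with ⟨l, hsq, hne, hPT⟩
    simp only [lam, hi]
    set T := inertia Q (homFun l) with hT
    have hQT : Q ≤ T := hQP.trans hPT
    haveI := Fintype.ofFinite T
    haveI := Fintype.ofFinite (T.subgroupOf N)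
    have hTN : inertia (Q.subgroupOf N) (homFun (l.comp e.toMonoidHom)) = T.subgroupOf N := by
      ext n
      rw [mem_inertia, Subgroup.mem_subgroupOf, hT, mem_inertia,
        show homFun (l.comp e.toMonoidHom) = homFun l ∘ e from rfl, hconjN]
      constructor
      · intro h; funext q; simpa using congrFun h (e.symm q)
      · intro h; rw [h]
    have hK : kerOf (l.comp e.toMonoidHom) = (kerOf l).subgroupOf N := by
      ext x
      constructor
      · rintro ⟨y, hy, rfl⟩
        exact ⟨e y, hy, rfl⟩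
      · rintro ⟨q, hq, hqx⟩
        refine ⟨e.symm q, ?_, Subtype.ext hqx⟩
        show l (e (e.symm q)) = 1
        rw [e.apply_symm_apply]; exact hq
    have h1 := card_over_add hsq rfl hQT hne (odd_index P hPT)
    have h2 := card_over_add (l := l.comp e.toMonoidHom) (T := T.subgroupOf N)
      (fun x => hsq (e x)) hTN (Subgroup.comap_mono hQT)
      (fun h => hne (MonoidHom.ext fun q => by simpa using DFunLike.congr_fun h (e.symm q)))
      ((odd_index P hPT).of_dvd_nat (by
        have : Odd T.index := odd_index P hPT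
        exact dvd_rfl) |> fun _ => odd_index (P.subtype hPN) (by
          rw [Sylow.coe_subtype]; exact Subgroup.comap_mono hPT))
    rw [hK, hstepA T hPT (kerOf l) (kerOf_normal_in l rfl) ((kerOf_le l).trans hQT) (hker l hsq),
      hstepA T hPT Q ((inferInstance : Q.Normal).subgroupOf T) hQT hQ0] at h2
    show Nat.card {χ : IrrCharacter G // RO χ ∧ classInner (fun q : Q => (χ : G → ℂ) q)
      (homFun l) ≠ 0} = _
    exact Nat.add_right_cancel (h1.trans h2.symm)
  · -- all characters of odd degree real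
    have hstepB : ∀ (T : Subgroup G) (hPT : (P : Subgroup G) ≤ T) (X : Subgroup G),
        (X.subgroupOf T).Normal → X ≤ T → X ≠ ⊥ → N ≤ (P : Subgroup G) →
        (AllRealMod (X.subgroupOf T) ↔ ElemMod (P : Subgroup G) X) := by
      intro T hPT X hXn hXT hX hnp
      haveI := hXn
      rw [stepB (G := T) ih (P.subtype hPT) (X.subgroupOf T) (hltT T X hXT hX), Sylow.coe_subtype,
        ← elemMod_subgroupOf hPT]
      refine and_iff_left (le_sup_of_le_left ?_)
      rw [← Subgroup.subgroupOf_normalizer_eq hPT]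
      exact Subgroup.comap_mono hnp
    constructor
    · intro hall
      obtain ⟨helQ, hnp⟩ := (stepB ih P Q hltQ).1 fun χ ho _ => hall χ ho fun k hk => by
        rw [Subgroup.mem_bot.1 hk]
      rw [sup_of_le_left hQP] at hnp
      refine ⟨fun μ _ => ?_, hnp⟩
      haveI := Fintype.ofFinite (P : Subgroup G)
      set l : Q →* ℂˣ := μ.comp (Subgroup.inclusion hQP) with hl
      obtain ⟨χ, ho, hχ⟩ := exists_odd_over (P : Subgroup G) (odd_index P le_rfl) μ
      have hro : RO χ := ⟨hall χ ho fun k hk => by rw [Subgroup.mem_bot.1 hk], ho⟩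
      have hcon : classInner (fun q : Q => (χ : G → ℂ) q) (homFun l) ≠ 0 :=
        Block.classInner_restrict_ne_zero (Subgroup.inclusion hQP)
          (isCharacter_restrict (isCharacter_of_isIrr χ.2) (P : Subgroup G))
          ⟨_, isIrrCharacter_linear μ⟩ (isIrr_homFun l) (fun n => rfl) hχ
      have hsq : ∀ q, l q ^ 2 = 1 :=
        (hom_real_iff l).1 (constituent_real hro (θ := ⟨_, isIrr_homFun l⟩) hcon)
      by_cases hne : l = 1
      · exact helQ μ fun x hx => by
          have := DFunLike.congr_fun hne ⟨x, hx⟩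
          exact (congrArg μ (Subtype.ext rfl)).trans this
      set T := inertia Q (homFun l) with hT
      have hPT : (P : Subgroup G) ≤ T := by
        intro x hx
        rw [hT, mem_inertia]
        funext q
        rw [conjChar_apply]
        show ((μ _ : ℂˣ) : ℂ) = (μ _ : ℂˣ)
        rw [show Subgroup.inclusion hQP ⟨x * (q : G) * x⁻¹, (inferInstance : Q.Normal).conj_mem _ q.2 x⟩ =
          (⟨x, hx⟩ : (P : Subgroup G)) * Subgroup.inclusion hQP q * (⟨x, hx⟩ : (P : Subgroup G))⁻¹
          from Subtype.ext rfl, map_mul, map_mul, map_inv, mul_comm (μ _) (μ _), mul_inv_cancel_right]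
      have hQT : Q ≤ T := hQP.trans hPT
      haveI := Fintype.ofFinite T
      have hall' : AllRealMod ((kerOf l).subgroupOf T) := by
        intro ψ hoψ htr
        by_cases hov : classInner (resLe hQT (ψ : T → ℂ)) (homFun l) = 0
        · exact (hstepB T hPT Q ((inferInstance : Q.Normal).subgroupOf T) hQT hQ0 hnp).2 helQ ψ hoψ
            (trivial_of_not_over hsq hQT hne ψ htr hov)
        · refine real_of_ind hsq rfl hQT ψ hov (hall ⟨_, (indFun_correspondent Q (isIrr_homFun l) T
            rfl hQT ψ.2 hov).1⟩ ?_ fun k hk => by rw [Subgroup.mem_bot.1 hk])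
          show Odd (charDegree (indFun T (ψ : T → ℂ)))
          rw [charDegree_indFun T (isCharacter_of_isIrr ψ.2)]
          exact (odd_index P hPT).mul hoψ
      refine (hstepB T hPT (kerOf l) (kerOf_normal_in l rfl) ((kerOf_le l).trans hQT) (hker l hsq)
        hnp).1 hall' μ fun x hx => ?_
      have h1 : l ⟨x, kerOf_le l hx⟩ = 1 := mem_kerOf.1 hx
      exact (congrArg μ (Subtype.ext rfl)).trans h1
    · rintro ⟨hel, hnp⟩ χ ho -
      have hel' : ∀ μ : (P : Subgroup G) →* ℂˣ, ∀ x, μ x ^ 2 = 1 := fun μ => hel μ fun x hx => by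
        rw [show x = 1 from Subtype.ext (Subgroup.mem_bot.1 hx), map_one]
      by_cases htr : ∀ k ∈ Q, (χ : G → ℂ) k = (χ : G → ℂ) 1
      · exact (stepB ih P Q hltQ).2 ⟨fun μ _ => hel' μ, hnp.trans le_sup_left⟩ χ ho htr
      haveI := Fintype.ofFinite (P : Subgroup G)
      have hdP : Odd (charDegree fun x : (P : Subgroup G) => (χ : G → ℂ) x) := by
        rwa [charDegree_eq_of_apply_one (n := charDegree (χ : G → ℂ))
          (by rw [Subgroup.coe_one, apply_one_eq_charDegree (isCharacter_of_isIrr χ.2)])]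
      obtain ⟨μ, hμ⟩ := exists_linear_constituent P.isPGroup'
        (isCharacter_restrict (isCharacter_of_isIrr χ.2) (P : Subgroup G)) hdP
      set l : Q →* ℂˣ := μ.comp (Subgroup.inclusion hQP) with hl
      have hcon : classInner (fun q : Q => (χ : G → ℂ) q) (homFun l) ≠ 0 :=
        Block.classInner_restrict_ne_zero (Subgroup.inclusion hQP)
          (isCharacter_restrict (isCharacter_of_isIrr χ.2) (P : Subgroup G))
          ⟨_, isIrrCharacter_linear μ⟩ (isIrr_homFun l) (fun n => rfl) hμ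
      have hsq : ∀ q, l q ^ 2 = 1 := fun q => hel' μ _
      have hne : l ≠ 1 := fun h => htr (trivial_of_constituent (θ := ⟨_, isIrr_homFun l⟩) hcon
        fun n => by show (l n : ℂ) = 1; rw [h]; rfl)
      set T := inertia Q (homFun l) with hT
      have hPT : (P : Subgroup G) ≤ T := by
        intro x hx
        rw [hT, mem_inertia]
        funext q
        rw [conjChar_apply]
        show ((μ _ : ℂˣ) : ℂ) = (μ _ : ℂˣ)
        rw [show Subgroup.inclusion hQP ⟨x * (q : G) * x⁻¹, (inferInstance : Q.Normal).conj_mem _ q.2 x⟩ =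
          (⟨x, hx⟩ : (P : Subgroup G)) * Subgroup.inclusion hQP q * (⟨x, hx⟩ : (P : Subgroup G))⁻¹
          from Subtype.ext rfl, map_mul, map_mul, map_inv, mul_comm (μ _) (μ _), mul_inv_cancel_right]
      have hQT : Q ≤ T := hQP.trans hPT
      haveI := Fintype.ofFinite T
      obtain ⟨ψ, hψ, hind, hov, -⟩ := exists_correspondent Q (isIrr_homFun l) T rfl hQT χ.2 hcon
      have hov' : classInner (resLe hQT ψ) (homFun l) ≠ 0 := hov ▸ hcon
      have hdeg := charDegree_indFun T (isCharacter_of_isIrr hψ)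
      rw [hind] at hdeg
      have hoψ : Odd (charDegree ψ) := (Nat.odd_mul.1 (hdeg ▸ ho)).2
      have hr := (hstepB T hPT (kerOf l) (kerOf_normal_in l rfl) ((kerOf_le l).trans hQT) (hker l hsq)
        hnp).2 (fun μ' _ => hel' μ') ⟨ψ, hψ⟩ hoψ (trivial_ker_of_over rfl hQT ⟨ψ, hψ⟩ hov')
      intro g
      refine Complex.conj_eq_iff_im.1 ?_
      rw [← hind, indFun_conj]
      congr 1
      exact funext fun t => Complex.conj_eq_iff_im.2 (hr t)

/-- The claim for every solvable group. -/
theorem claim (m : ℕ) : ClaimBelow.{u} m := by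
  induction m with
  | zero => exact fun A _ _ _ h => absurd h (Nat.not_lt_zero _)
  | succ m ih =>
    intro A _ _ _ hA P
    haveI : Fact (Nat.Prime 2) := ⟨Nat.prime_two⟩
    have ih' : ClaimBelow.{u} (Nat.card A) := fun B _ _ _ hB Q => ih B (by omega) Q
    by_cases hO : pPrimeCore 2 A = ⊥
    · haveI : (pCore 2 A).Normal := Hall.pCore_normal 2
      by_cases hQ : pCore 2 A = ⊤
      · exact claim_of_pgroup ((Hall.isPGroup_pCore 2).of_equiv
          ((MulEquiv.subgroupCongr hQ).trans Subgroup.topEquiv)) P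
      · exact claim_of_core ih' P (pCore 2 A) (Hall.isPGroup_pCore 2) (Hall.pCore_le_sylow P)
          (Hall.centralizer_pCore_le 2 hO) hQ
    · obtain ⟨L, hLn, hL0, hLO, hmin⟩ := Hall.exists_minimal_normal_le hO
      haveI := hLn
      obtain ⟨hab, -⟩ := Hall.minimal_normal_solvable L hL0 hmin
      haveI := hab
      exact claim_of_odd ih' P L hL0 ((Nat.coprime_two_right.1
        (Hall.coprime_card_pPrimeCore 2)).of_dvd_nat (Subgroup.card_dvd_of_le hLO))

/-- Linear characters are real exactly when the derived subgroup is the Frattini subgroup. -/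
theorem elemMod_iff (P : Subgroup G) (hP : IsPGroup 2 P) :
    ElemMod P ⊥ ↔ commutator P = frattini P := by
  haveI : Fact (Nat.Prime 2) := ⟨Nat.prime_two⟩
  constructor
  · intro h
    refine le_antisymm (PGroupFrattini.commutator_le_frattini hP)
      (PGroupFrattini.frattini_le Nat.prime_two _ le_rfl fun x => ?_)
    by_contra hx
    have hne : (Abelianization.of (x ^ 2) : Abelianization P) ≠ 1 := fun h0 => hx (by
      rw [← Abelianization.ker_of]; exact h0)
    haveI : Finite (Abelianization P) := inferInstanceAs (Finite (P ⧸ commutator P))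
    obtain ⟨φ, hφ⟩ := CommGroup.exists_apply_ne_one_of_hasEnoughRootsOfUnity (Abelianization P) ℂ hne
    refine hφ ?_
    rw [map_pow, map_pow]
    exact h (φ.comp Abelianization.of) (fun y hy => by
      rw [show y = 1 from Subtype.ext (Subgroup.mem_bot.1 hy), map_one]) x
  · intro h μ _ x
    have h2 : x ^ 2 ∈ μ.ker := Abelianization.commutator_subset_ker μ
      (h ▸ PGroupFrattini.pow_mem_frattini hP x)
    rwa [MonoidHom.mem_ker, map_pow] at h2

end Cfsg.Agent.Lib.CharRealSolvable
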