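import Cfsg.Agent.Lib.CharRealSolvable.Step

/-!
# A normal abelian subgroup of odd order
-/

set_option autoImplicit false
set_option linter.unusedSectionVars false
set_option linter.style.haveILetI false

open scoped ComplexConjugate

namespace Cfsg.Agent.Lib.CharRealSolvable

open Cfsg Cfsg.Agent.Lib Cfsg.Agent.Lib.Char

universe u

variable {G : Type u} [Group G] [Finite G] [Fintype G] {L : Subgroup G} [L.Normal] [Fintype L]

/-- A character with a trivial constituent on `L` is trivial on `L`. -/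
theorem trivial_of_constituent {χ : IrrCharacter G} {θ : IrrCharacter L}
    (hθ : classInner (fun n : L => (χ : G → ℂ) n) (θ : L → ℂ) ≠ 0) (hone : ∀ n, (θ : L → ℂ) n = 1) :
    ∀ k ∈ L, (χ : G → ℂ) k = (χ : G → ℂ) 1 := by
  intro k hk
  have e := congrFun (clifford L χ.2 θ.2 hθ) ⟨k, hk⟩
  have e1 := congrFun (clifford L χ.2 θ.2 hθ) 1
  simp only [Subgroup.coe_one, Pi.smul_apply, Finset.sum_apply, smul_eq_mul] at e e1
  rw [e, e1]
  congr 1
  refine Finset.sum_congr rfl fun ψ hψ => ?_
  obtain ⟨g, rfl⟩ := (mem_orbit L).1 hψ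
  rw [conjChar_apply, conjChar_apply, hone, hone]

theorem coprime_sylow (P : Sylow 2 G) (hL : Odd (Nat.card L)) :
    (Nat.card P).Coprime (Nat.card L) := by
  obtain ⟨j, hj⟩ := IsPGroup.iff_card.1 P.isPGroup'
  rw [hj]
  exact Nat.Coprime.pow_left j (Nat.coprime_two_left.2 hL)

theorem inf_sylow_eq_bot (P : Sylow 2 G) (hL : Odd (Nat.card L)) : L ⊓ (P : Subgroup G) = ⊥ :=
  (Subgroup.inf_eq_bot_of_coprime (coprime_sylow P hL).symm)

variable [IsMulCommutative L]

/-- The commutative structure of `L`. -/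
local instance (L : Subgroup G) [IsMulCommutative L] : CommGroup L :=
  { (inferInstance : Group L) with mul_comm := mul_comm' }

/-- The product of the conjugates under `P`. -/
noncomputable def avg (L : Subgroup G) [L.Normal] [IsMulCommutative L] (P : Subgroup G) : L →* L :=
  open scoped Classical in
  letI : Fintype P := Fintype.ofFinite P
  MonoidHom.mk' (fun n => ∏ x : P, MulAut.conjNormal (x : G) n) fun a b => by
    simp only [map_mul, Finset.prod_mul_distrib]

theorem avg_apply (P : Subgroup G) [Fintype P] (n : L) :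
    avg L P n = ∏ x : P, MulAut.conjNormal (x : G) n := by
  classical
  show (letI : Fintype P := Fintype.ofFinite P; ∏ x : P, MulAut.conjNormal (x : G) n) = _
  congr! 2

theorem avg_fixed (P : Subgroup G) (y : P) (n : L) :
    MulAut.conjNormal (y : G) (avg L P n) = avg L P n := by
  classical
  haveI := Fintype.ofFinite P
  rw [avg_apply, map_prod]
  exact Fintype.prod_equiv (Equiv.mulLeft y) _ _ fun x => by
    rw [Equiv.coe_mulLeft, Subgroup.coe_mul, map_mul, MulAut.mul_apply]

theorem avg_conj (P : Subgroup G) (y : P) (n : L) :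
    avg L P (MulAut.conjNormal (y : G) n) = avg L P n := by
  classical
  haveI := Fintype.ofFinite P
  rw [avg_apply, avg_apply]
  exact Fintype.prod_equiv (Equiv.mulRight y) _ _ fun x => by
    rw [Equiv.coe_mulRight, Subgroup.coe_mul, map_mul, MulAut.mul_apply]

/-- An invariant linear character is trivial when `P` fixes nothing in `L`. -/
theorem hom_eq_one (P : Sylow 2 G) (hL : Odd (Nat.card L))
    (hC : ∀ c : L, (∀ x : (P : Subgroup G), MulAut.conjNormal (x : G) c = c) → c = 1)
    (l : L →* ℂˣ) (hl : ∀ x : (P : Subgroup G), ∀ n : L, l (MulAut.conjNormal (x : G) n) = l n)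
    (n : L) : l n = 1 := by
  classical
  haveI := Fintype.ofFinite (P : Subgroup G)
  have h1 : l n ^ Nat.card (P : Subgroup G) = 1 := by
    have h := congrArg l (hC (avg L (P : Subgroup G) n) fun x => avg_fixed _ x n)
    rw [avg_apply, map_prod, map_one, Finset.prod_congr rfl fun x _ => hl x n, Finset.prod_const,
      Finset.card_univ, ← Nat.card_eq_fintype_card] at h
    exact h
  have h2 : l n ^ Nat.card L = 1 := by rw [← map_pow, pow_card_eq_one', map_one]
  have h3 := pow_gcd_eq_one.mpr ⟨h1, h2⟩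
  rwa [(coprime_sylow P hL).gcd_eq_one, pow_one] at h3

/-- When `P` fixes nothing in `L` every character of odd degree is trivial on `L`. -/
theorem trivial_of_fixed (P : Sylow 2 G) (hL : Odd (Nat.card L))
    (hC : ∀ c : L, (∀ x : (P : Subgroup G), MulAut.conjNormal (x : G) c = c) → c = 1)
    {χ : IrrCharacter G} (ho : Odd (charDegree (χ : G → ℂ))) :
    ∀ k ∈ L, (χ : G → ℂ) k = (χ : G → ℂ) 1 := by
  classical
  obtain ⟨θ, hθ, -, hinv⟩ := exists_inv_constituent (L := L) P ho
  have hdeg : charDegree (θ : L → ℂ) = 1 := by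
    have := degree_dvd_index_of_abelian (N := (⊤ : Subgroup L)) θ.2
      (fun a _ c _ => mul_comm' a c)
    rw [Subgroup.index_top] at this
    exact Nat.dvd_one.1 this
  obtain ⟨l, hl⟩ := exists_hom_of_degree_one (isCharacter_of_isIrr θ.2)
    (by rw [apply_one_eq_charDegree (isCharacter_of_isIrr θ.2), hdeg, Nat.cast_one])
  refine trivial_of_constituent hθ fun n => ?_
  rw [hl, hom_eq_one P hL hC l (fun x n => Units.ext ?_) n, Units.val_one]
  rw [← hl, ← hl]
  exact congrFun (conjChar_eq_comp L (x : G) (θ : L → ℂ) ▸ hinv (x : G) x.2) n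

/-- If every character of odd degree is real, `P` fixes nothing in `L`. -/
theorem fixed_of_allReal (P : Sylow 2 G) (hL : Odd (Nat.card L))
    (hall : AllRealMod (⊥ : Subgroup G)) (c : L)
    (hc : ∀ x : (P : Subgroup G), MulAut.conjNormal (x : G) c = c) : c = 1 := by
  classical
  haveI : Fact (Nat.Prime 2) := ⟨Nat.prime_two⟩
  by_contra hne
  haveI := Fintype.ofFinite (P : Subgroup G)
  obtain ⟨θ₀, hθ₀⟩ := CommGroup.exists_apply_ne_one_of_hasEnoughRootsOfUnity L ℂ hne
  set θ : L →* ℂˣ := θ₀.comp (avg L (P : Subgroup G)) with hθdef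
  have hθc : θ c ≠ 1 := by
    intro h
    rw [hθdef, MonoidHom.comp_apply, avg_apply, Finset.prod_congr rfl fun x _ => hc x,
      Finset.prod_const, Finset.card_univ, ← Nat.card_eq_fintype_card, map_pow] at h
    have h2 : θ₀ c ^ Nat.card L = 1 := by rw [← map_pow, pow_card_eq_one', map_one]
    have h3 := pow_gcd_eq_one.mpr ⟨h, h2⟩
    rw [(coprime_sylow P hL).gcd_eq_one, pow_one] at h3
    exact hθ₀ h3
  have hinv : ∀ x ∈ (P : Subgroup G), ∀ n : L, θ (MulAut.conjNormal x n) = θ n := fun x hx n =>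
    congrArg θ₀ (avg_conj (P : Subgroup G) ⟨x, hx⟩ n)
  -- the extension to `L ⊔ P`
  set J := L ⊔ (P : Subgroup G) with hJ
  have hdec : ∀ j : J, ∃ l : L, ∃ x ∈ (P : Subgroup G), (j : G) = (l : G) * x := fun j => by
    obtain ⟨l, hl, x, hx, he⟩ := Subgroup.mem_sup_of_normal_left.1 j.2
    exact ⟨⟨l, hl⟩, x, hx, he.symm⟩
  choose lp xp hxp hlp using hdec
  have huniq : ∀ (j : J) (l : L) (x : G), x ∈ (P : Subgroup G) → (j : G) = (l : G) * x → lp j = l := by
    intro j l x hx he
    rw [hlp j] at he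
    have hmem : (l : G)⁻¹ * (lp j : G) ∈ L ⊓ (P : Subgroup G) := by
      refine Subgroup.mem_inf.2 ⟨L.mul_mem (L.inv_mem l.2) (lp j).2, ?_⟩
      have : (l : G)⁻¹ * (lp j : G) = x * (xp j)⁻¹ := by
        rw [eq_mul_inv_iff_mul_eq, mul_assoc, he, inv_mul_cancel_left]
      rw [this]
      exact Subgroup.mul_mem _ hx (Subgroup.inv_mem _ (hxp j))
    rw [inf_sylow_eq_bot P hL, Subgroup.mem_bot, inv_mul_eq_one] at hmem
    exact Subtype.ext hmem.symm
  let η : J →* ℂˣ := MonoidHom.mk' (fun j => θ (lp j)) fun i j => by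
    rw [huniq (i * j) (lp i * MulAut.conjNormal (xp i) (lp j)) (xp i * xp j)
      (mul_mem (hxp i) (hxp j)) (by
        rw [Subgroup.coe_mul, hlp i, hlp j, Subgroup.coe_mul, MulAut.conjNormal_apply]; group),
      map_mul, hinv _ (hxp i)]
  have hηL : ∀ n : L, η ⟨n, le_sup_left (α := Subgroup G) n.2⟩ = θ n := fun n => by
    show θ (lp _) = θ n
    rw [huniq _ n 1 (one_mem _) (by simp)]
  haveI := Fintype.ofFinite J
  have hJi : Odd J.index := by
    refine Odd.of_dvd_nat ?_ (Subgroup.index_dvd_of_le (le_sup_right : (P : Subgroup G) ≤ J))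
    exact Nat.odd_iff.2 (Nat.two_dvd_ne_zero.1 P.not_dvd_index)
  obtain ⟨χ, hodd, hχ⟩ := exists_odd_over J hJi η
  have hne0 : classInner (fun n : L => (χ : G → ℂ) n) (fun n => (θ n : ℂ)) ≠ 0 :=
    Block.classInner_restrict_ne_zero (Subgroup.inclusion (le_sup_left : L ≤ J))
      (isCharacter_restrict (isCharacter_of_isIrr χ.2) J) ⟨_, isIrrCharacter_linear η⟩
      (isIrrCharacter_linear θ) (fun n => congrArg Units.val (hηL n)) hχ
  have htriv := trivial_of_odd (L := L) ⟨hall χ hodd (fun k hk => by rw [Subgroup.mem_bot.1 hk]), hodd⟩ hL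
  refine hne0 ?_
  rw [show (fun n : L => (χ : G → ℂ) n) = (χ : G → ℂ) 1 • fun _ : L => (1 : ℂ) from
    funext fun n => by rw [htriv n n.2, Pi.smul_apply, smul_eq_mul, mul_one], classInner_smul_left,
    classInner_irr_ne isIrrCharacter_one (isIrrCharacter_linear θ) (fun h => hθc (Units.ext ?_)),
    mul_zero]
  exact (congrFun h c).symm

end Cfsg.Agent.Lib.CharRealSolvable
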