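import Cfsg.Agent.Lib.CharRealSolvable.Basic
import Cfsg.Agent.Lib.Hall.Solvable

/-!
# The inductive step for real characters of odd degree
-/

set_option autoImplicit false
set_option linter.unusedSectionVars false
set_option linter.style.haveILetI false

open scoped ComplexConjugate

namespace Cfsg.Agent.Lib.CharRealSolvable

open Cfsg Cfsg.Agent.Lib Cfsg.Agent.Lib.Char

universe u

variable {G : Type u} [Group G] [Finite G]

/-- Every character of odd degree trivial on `K` is real. -/
def AllRealMod (K : Subgroup G) : Prop :=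
  ∀ χ : IrrCharacter G, Odd (charDegree (χ : G → ℂ)) →
    (∀ k ∈ K, (χ : G → ℂ) k = (χ : G → ℂ) 1) → ∀ g, ((χ : G → ℂ) g).im = 0

/-- The linear characters of `P` trivial on `K` are real. -/
def ElemMod (P K : Subgroup G) : Prop :=
  ∀ μ : P →* ℂˣ, (∀ x : P, (x : G) ∈ K → μ x = 1) → ∀ x, μ x ^ 2 = 1

/-- The claim for a group and a Sylow subgroup. -/
def Claim (P : Sylow 2 G) : Prop :=
  Nat.card {χ : IrrCharacter G // RO χ} =
      Nat.card {χ : IrrCharacter (Subgroup.normalizer ((P : Subgroup G) : Set G)) // RO χ} ∧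
    (AllRealMod (⊥ : Subgroup G) ↔ ElemMod (P : Subgroup G) ⊥ ∧
      Subgroup.normalizer ((P : Subgroup G) : Set G) ≤ (P : Subgroup G))

/-- The claim for the solvable groups of order less than `m`. -/
def ClaimBelow.{v} (m : ℕ) : Prop :=
  ∀ (A : Type v) [Group A] [Finite A] [Group.IsSolvable A], Nat.card A < m → ∀ Q : Sylow 2 A, Claim Q

variable {m : ℕ} [Group.IsSolvable G]

/-- The count modulo a normal subgroup. -/
theorem stepA (ih : ClaimBelow.{u} m) (P : Sylow 2 G) (K : Subgroup G) [K.Normal]
    (hm : Nat.card (G ⧸ K) < m) :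
    cnt K = cnt (K.subgroupOf (Subgroup.normalizer ((P : Subgroup G) : Set G))) := by
  haveI : Fact (Nat.Prime 2) := ⟨Nat.prime_two⟩
  haveI := Fintype.ofFinite G
  set N := Subgroup.normalizer ((P : Subgroup G) : Set G) with hN
  have h := (ih (G ⧸ K) hm (P.mapSurjective (QuotientGroup.mk'_surjective K))).1
  rw [Sylow.coe_mapSurjective] at h
  have e1 : cnt K = Nat.card {χ : IrrCharacter (G ⧸ K) // RO χ} := by
    rw [cnt_map (QuotientGroup.mk' K) (QuotientGroup.mk'_surjective K) K (QuotientGroup.ker_mk' K).le,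
      ← cnt_bot]
    congr 1
    exact QuotientGroup.map_mk'_self K
  have e2 : cnt (K.subgroupOf N) =
      Nat.card {χ : IrrCharacter (N.map (QuotientGroup.mk' K) : Subgroup (G ⧸ K)) // RO χ} := by
    rw [cnt_map ((QuotientGroup.mk' K).subgroupMap N) (MonoidHom.subgroupMap_surjective _ N)
      (K.subgroupOf N) (fun x hx => by
        have h0 : QuotientGroup.mk' K (x : G) = 1 := congrArg Subtype.val (MonoidHom.mem_ker.1 hx)
        exact (QuotientGroup.eq_one_iff (x : G)).1 h0), ← cnt_bot]
    congr 1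
    rw [Subgroup.map_eq_bot_iff]
    intro x hx
    exact MonoidHom.mem_ker.2 (Subtype.ext ((QuotientGroup.eq_one_iff (x : G)).2 hx))
  rw [e1, h, e2]
  exact card_ro_eq (MulEquiv.subgroupCongr (normalizer_sylow_map P K))

/-- The equivalence modulo a normal subgroup. -/
theorem stepB (ih : ClaimBelow.{u} m) (P : Sylow 2 G) (K : Subgroup G) [K.Normal]
    (hm : Nat.card (G ⧸ K) < m) :
    AllRealMod K ↔ ElemMod (P : Subgroup G) K ∧
      Subgroup.normalizer ((P : Subgroup G) : Set G) ≤ (P : Subgroup G) ⊔ K := by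
  haveI : Fact (Nat.Prime 2) := ⟨Nat.prime_two⟩
  haveI := Fintype.ofFinite G
  set π := QuotientGroup.mk' K with hπ
  have hs : Function.Surjective π := QuotientGroup.mk'_surjective K
  have h := (ih (G ⧸ K) hm (P.mapSurjective hs)).2
  rw [Sylow.coe_mapSurjective, normalizer_sylow_map P K, Subgroup.map_le_iff_le_comap,
    Subgroup.comap_map_eq, QuotientGroup.ker_mk'] at h
  have hA : AllRealMod K ↔ AllRealMod (⊥ : Subgroup (G ⧸ K)) := by
    constructor
    · intro hall η ho _ q
      obtain ⟨g, rfl⟩ := hs q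
      refine hall ⟨fun g => (η : G ⧸ K → ℂ) (π g), isIrrCharacter_comp η.2 π hs⟩ ?_ ?_ g
      · show Odd (charDegree (fun g => (η : G ⧸ K → ℂ) (π g)))
        rwa [charDegree_eq_of_apply_one (n := charDegree (η : G ⧸ K → ℂ))
          (by rw [map_one, apply_one_eq_charDegree (isCharacter_of_isIrr η.2)])]
      · intro k hk
        show (η : G ⧸ K → ℂ) (π k) = (η : G ⧸ K → ℂ) (π 1)
        rw [map_one, show π k = 1 from (QuotientGroup.eq_one_iff k).2 hk]
    · intro hall χ ho htr g
      obtain ⟨η, hη⟩ := exists_factor π hs χ.2 (by rw [QuotientGroup.ker_mk']; exact htr)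
      rw [← hη]
      refine hall η ?_ (fun k hk => by rw [Subgroup.mem_bot.1 hk]) _
      rwa [charDegree_eq_of_apply_one (n := charDegree (χ : G → ℂ))
        (by rw [← map_one π, hη, apply_one_eq_charDegree (isCharacter_of_isIrr χ.2)])]
  have hE : ElemMod (P : Subgroup G) K ↔ ElemMod ((P : Subgroup G).map π) ⊥ := by
    have hsP := MonoidHom.subgroupMap_surjective π (P : Subgroup G)
    constructor
    · intro he μ _ y
      obtain ⟨x, rfl⟩ := hsP y
      refine he (μ.comp (π.subgroupMap (P : Subgroup G))) (fun x hx => ?_) x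
      rw [MonoidHom.comp_apply, show π.subgroupMap (P : Subgroup G) x = 1 from
        Subtype.ext ((QuotientGroup.eq_one_iff (x : G)).2 hx), map_one]
    · intro he μ hμ x
      have hker : (π.subgroupMap (P : Subgroup G)).ker ≤ μ.ker := fun z hz => by
        have h0 : π (z : G) = 1 := congrArg Subtype.val (MonoidHom.mem_ker.1 hz)
        exact MonoidHom.mem_ker.2 (hμ z ((QuotientGroup.eq_one_iff (z : G)).1 h0))
      have h1 := MonoidHom.liftOfRightInverse_comp_apply (π.subgroupMap (P : Subgroup G))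
        (Function.surjInv hsP) (Function.rightInverse_surjInv hsP) ⟨μ, hker⟩ x
      simp only at h1
      rw [← h1]
      refine he _ (fun y hy => ?_) _
      rw [show y = 1 from Subtype.ext (Subgroup.mem_bot.1 hy), map_one]
  rw [hA, hE]
  exact h

theorem card_quotient_lt {T : Subgroup G} (K : Subgroup T) (hK : K ≠ ⊥) :
    Nat.card (T ⧸ K) < Nat.card G := by
  refine lt_of_lt_of_le ?_ (Subgroup.card_le_card_group T)
  rw [Subgroup.card_eq_card_quotient_mul_card_subgroup K]
  exact lt_mul_of_one_lt_right Nat.card_pos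
    ((Subgroup.one_lt_card_iff_ne_bot K).2 hK)

theorem card_quotient_lt' (K : Subgroup G) (hK : K ≠ ⊥) : Nat.card (G ⧸ K) < Nat.card G := by
  conv_rhs => rw [Subgroup.card_eq_card_quotient_mul_card_subgroup K]
  exact lt_mul_of_one_lt_right Nat.card_pos ((Subgroup.one_lt_card_iff_ne_bot K).2 hK)

end Cfsg.Agent.Lib.CharRealSolvable
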